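import Cfsg.Agent.H454.Reg.Alt.Defs

/-!
# S3691, ALT-2: a transitive group `PSL₂(q)` of degree `q + 1` is the group of the projective line (helper388)

* `stLine : StLine`.
-/

set_option autoImplicit false
set_option linter.style.haveILetI false

namespace Cfsg.Agent.H388.Reg

open Matrix Equiv MulAction

section SL

variable {F : Type*} [Field F]

/-- upper unitriangular -/
def U (b : F) : SpecialLinearGroup (Fin 2) F := ⟨!![1, b; 0, 1], by simp⟩

/-- lower unitriangular -/
def L (b : F) : SpecialLinearGroup (Fin 2) F := ⟨!![1, 0; b, 1], by simp⟩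

theorem val_mul (A B : SpecialLinearGroup (Fin 2) F) : (A * B).1 = A.1 * B.1 := rfl

theorem U_add (a b : F) : U (a + b) = U a * U b := by
  apply Subtype.ext
  simp only [val_mul]
  simp only [U]
  ext i j
  fin_cases i <;> fin_cases j <;> simp [Matrix.mul_apply, Fin.sum_univ_two, add_comm]

/-- the homomorphism `b ↦ U b` -/
def uHom (F : Type*) [Field F] : Multiplicative F →* SpecialLinearGroup (Fin 2) F :=
  MonoidHom.mk' (fun b => U b.toAdd) fun _ _ => U_add _ _

/-- `!![0, -c⁻¹; c, 0]` -/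
def W (c : F) (hc : c ≠ 0) : SpecialLinearGroup (Fin 2) F :=
  ⟨!![0, -c⁻¹; c, 0], by rw [Matrix.det_fin_two_of]; field_simp; ring⟩

theorem W_eq (c : F) (hc : c ≠ 0) : W c hc = U (-c⁻¹) * L c * U (-c⁻¹) := by
  apply Subtype.ext
  simp only [val_mul]
  simp only [U, L, W]
  ext i j
  fin_cases i <;> fin_cases j <;> simp [Matrix.mul_apply, Fin.sum_univ_two, hc]

theorem L_eq (c b : F) (hc : c ≠ 0) : L b = W c hc * U (-b * (c⁻¹) ^ 2) * (W c hc)⁻¹ := by
  rw [eq_mul_inv_iff_mul_eq]
  apply Subtype.ext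
  simp only [val_mul]
  simp only [U, L, W]
  ext i j
  fin_cases i <;> fin_cases j <;> simp [Matrix.mul_apply, Fin.sum_univ_two, hc]
  field_simp

theorem eq_UWU (M : SpecialLinearGroup (Fin 2) F) (hc : M.1 1 0 ≠ 0) :
    M = U (M.1 0 0 / M.1 1 0) * W (M.1 1 0) hc * U (M.1 1 1 / M.1 1 0) := by
  have hdet := M.2
  rw [Matrix.det_fin_two] at hdet
  apply Subtype.ext
  simp only [val_mul]
  simp only [U, W]
  ext i j
  fin_cases i <;> fin_cases j <;> simp [Matrix.mul_apply, Fin.sum_univ_two]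
  · field_simp
  · field_simp
    linear_combination -hdet
  · field_simp

theorem eq_top_of {S : Subgroup (SpecialLinearGroup (Fin 2) F)} (hU : ∀ b, U b ∈ S)
    {M : SpecialLinearGroup (Fin 2) F} (hM : M ∈ S) (hc : M.1 1 0 ≠ 0) : S = ⊤ := by
  have h1 : W (M.1 1 0) hc ∈ S := by
    have h2 := eq_UWU M hc
    have h3 : W (M.1 1 0) hc = (U (M.1 0 0 / M.1 1 0))⁻¹ * M * (U (M.1 1 1 / M.1 1 0))⁻¹ := by
      rw [eq_mul_inv_iff_mul_eq, eq_inv_mul_iff_mul_eq, ← mul_assoc]
      exact h2.symm
    rw [h3]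
    exact S.mul_mem (S.mul_mem (S.inv_mem (hU _)) hM) (S.inv_mem (hU _))
  have hL : ∀ b, L b ∈ S := by
    intro b
    rw [L_eq _ b hc]
    exact S.mul_mem (S.mul_mem h1 (hU _)) (S.inv_mem h1)
  have hW : ∀ (c : F) (h : c ≠ 0), W c h ∈ S := by
    intro c h
    rw [W_eq]
    exact S.mul_mem (S.mul_mem (hU _) (hL _)) (hU _)
  have h2 : ∀ A : SpecialLinearGroup (Fin 2) F, A.1 1 0 ≠ 0 → A ∈ S := by
    intro A hA
    rw [eq_UWU A hA]
    exact S.mul_mem (S.mul_mem (hU _) (hW _ _)) (hU _)
  rw [Subgroup.eq_top_iff']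
  intro A
  by_cases hA : A.1 1 0 = 0
  · have h3 : (A * W 1 one_ne_zero).1 1 0 ≠ 0 := by
      have hdet := A.2
      rw [Matrix.det_fin_two, hA, mul_zero, sub_zero] at hdet
      simp only [val_mul]
      simp only [W]
      simp [Matrix.mul_apply, Fin.sum_univ_two, right_ne_zero_of_mul_eq_one hdet]
    have h4 := h2 _ h3
    have h5 : A = A * W 1 one_ne_zero * (W 1 one_ne_zero)⁻¹ := by rw [mul_inv_cancel_right]
    rw [h5]
    exact S.mul_mem h4 (S.inv_mem (hW _ _))
  · exact h2 A hA

end SL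

open scoped OnePoint in
/-- the coordinates -/
theorem exists_coord {F : Type} [Field F] [Fintype F] [DecidableEq F] {N Ω : Type*} [Group N] [MulAction N Ω] [Finite Ω]
    [IsPretransitive N Ω] (f : SpecialLinearGroup (Fin 2) F →* N) (hf : Function.Surjective f)
    (hn : Nat.card Ω = Fintype.card F + 1) :
    ∃ e : Ω ≃ OnePoint F, ∀ (M : SpecialLinearGroup (Fin 2) F) (x : Ω), e (f M • x) = SpecialLinearGroup.toGL M • e x := by
  -- a point fixed by `U`
  obtain ⟨p, hch⟩ := CharP.exists F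
  obtain ⟨k, hp, hk⟩ := FiniteField.card F p
  haveI := Fact.mk hp
  letI act : MulAction (Multiplicative F) Ω := MulAction.compHom Ω (f.comp (uHom F))
  have hpg : IsPGroup p (Multiplicative F) := by
    intro x
    refine ⟨1, ?_⟩
    rw [pow_one]
    apply Multiplicative.toAdd.injective
    rw [toAdd_pow, toAdd_one, nsmul_eq_mul, CharP.cast_eq_zero, zero_mul]
  have hdvd : ¬ p ∣ Nat.card Ω := by
    rw [hn, hk]
    intro h
    have h1 : p ∣ p ^ (k : ℕ) := dvd_pow_self p k.pos.ne'
    have h2 := (Nat.dvd_add_right h1).1 h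
    exact hp.one_lt.ne' (Nat.dvd_one.1 h2)
  obtain ⟨α, hα⟩ := hpg.nonempty_fixed_point_of_prime_not_dvd_card (α := Ω) hdvd
  have hU : ∀ b : F, f (U b) • α = α := fun b => hα (Multiplicative.ofAdd b)
  -- the stabilizer
  set S : Subgroup (SpecialLinearGroup (Fin 2) F) := (stabilizer N α).comap f with hS
  have hS1 : ∀ M, M ∈ S ↔ f M • α = α := fun M => Iff.rfl
  have hbor : ∀ M ∈ S, M.1 1 0 = 0 := by
    intro M hM
    by_contra hc
    have h1 := eq_top_of (S := S) (fun b => (hS1 _).2 (hU b)) hM hc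
    have h2 : ∀ x : Ω, x = α := by
      intro x
      obtain ⟨g, hg⟩ := MulAction.exists_smul_eq N α x
      obtain ⟨A, rfl⟩ := hf g
      have h3 : A ∈ S := by rw [h1]; trivial
      rw [← hg]
      exact (hS1 A).1 h3
    have h3 : Nat.card Ω ≤ 1 := by
      rw [Finite.card_le_one_iff_subsingleton]
      exact ⟨fun x y => (h2 x).trans (h2 y).symm⟩
    have h4 : 0 < Fintype.card F := Fintype.card_pos
    omega
  -- the map
  have hex : ∀ x : Ω, ∃ M : SpecialLinearGroup (Fin 2) F, f M • α = x := by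
    intro x
    obtain ⟨g, hg⟩ := MulAction.exists_smul_eq N α x
    obtain ⟨A, rfl⟩ := hf g
    exact ⟨A, hg⟩
  choose c hc using hex
  have hwd : ∀ A B : SpecialLinearGroup (Fin 2) F, f A • α = f B • α →
      SpecialLinearGroup.toGL A • (∞ : OnePoint F) = SpecialLinearGroup.toGL B • (∞ : OnePoint F) := by
    intro A B h
    have h1 : B⁻¹ * A ∈ S := by
      rw [hS1, map_mul, map_inv, mul_smul, h, inv_smul_smul]
    have h2 := hbor _ h1
    have h3 : SpecialLinearGroup.toGL (B⁻¹ * A) • (∞ : OnePoint F) = ∞ := by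
      rw [OnePoint.smul_infty_eq_self_iff]
      exact h2
    rw [map_mul, map_inv, mul_smul, inv_smul_eq_iff] at h3
    exact h3
  let Ψ : Ω → OnePoint F := fun x => SpecialLinearGroup.toGL (c x) • (∞ : OnePoint F)
  have hΨ : ∀ A : SpecialLinearGroup (Fin 2) F, Ψ (f A • α) = SpecialLinearGroup.toGL A • (∞ : OnePoint F) :=
    fun A => hwd _ _ (hc _)
  have hsurj : Function.Surjective Ψ := by
    intro y
    cases y with
    | infty =>
      refine ⟨f 1 • α, ?_⟩
      rw [hΨ, map_one, one_smul]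
    | coe t =>
      refine ⟨f (U t * W 1 one_ne_zero) • α, ?_⟩
      rw [hΨ, OnePoint.smul_infty_eq_ite]
      have h1 : (SpecialLinearGroup.toGL (U t * W 1 one_ne_zero)) 1 0 = (1 : F) := by
        change (U t * W 1 one_ne_zero).1 1 0 = 1
        simp only [val_mul]
        simp [U, W, Matrix.mul_apply, Fin.sum_univ_two]
      have h2 : (SpecialLinearGroup.toGL (U t * W 1 one_ne_zero)) 0 0 = t := by
        change (U t * W 1 one_ne_zero).1 0 0 = t
        simp only [val_mul]
        simp [U, W, Matrix.mul_apply, Fin.sum_univ_two]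
      rw [h1, h2, if_neg one_ne_zero, div_one]
  letI : Fintype (OnePoint F) := inferInstanceAs (Fintype (Option F))
  haveI := Fintype.ofFinite Ω
  have hcard : Fintype.card Ω = Fintype.card (OnePoint F) := by
    rw [← Nat.card_eq_fintype_card, hn]
    exact (Fintype.card_option (α := F)).symm
  have hbij : Function.Bijective Ψ := (Fintype.bijective_iff_surjective_and_card Ψ).2 ⟨hsurj, hcard⟩
  refine ⟨Equiv.ofBijective Ψ hbij, fun M x => ?_⟩
  change Ψ (f M • x) = SpecialLinearGroup.toGL M • Ψ x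
  rw [← hc x, ← mul_smul, ← map_mul, hΨ, hΨ, map_mul, mul_smul]

theorem stLine : Cfsg.Agent.H454.Reg.Alt.StLine := by
  classical
  intro Ω _ _ N F _ _ _ hn htr ⟨e₀⟩
  haveI := htr
  let f : SpecialLinearGroup (Fin 2) F →* N := e₀.symm.toMonoidHom.comp
    (QuotientGroup.mk' (Subgroup.center (SpecialLinearGroup (Fin 2) F)))
  have hf : Function.Surjective f := e₀.symm.surjective.comp (QuotientGroup.mk'_surjective _)
  obtain ⟨e, he⟩ := exists_coord (Ω := Ω) f hf (by rw [Nat.card_eq_fintype_card]; exact hn)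
  have he' : ∀ (M : SpecialLinearGroup (Fin 2) F) (x : Ω), e ((f M : Perm Ω) x) = SpecialLinearGroup.toGL M • e x := he
  -- the criterion
  have key : ∀ (g : Perm Ω) (s : OnePoint F → OnePoint F) (c : SpecialLinearGroup (Fin 2) F → SpecialLinearGroup (Fin 2) F),
      (∀ x, e (g x) = s (e x)) → (∀ M y, s (SpecialLinearGroup.toGL M • y) = SpecialLinearGroup.toGL (c M) • s y) →
      g ∈ Subgroup.normalizer (N : Set (Perm Ω)) := by
    intro g s c hg hs
    haveI : Finite (N : Set (Perm Ω)) := Set.toFinite _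
    refine Subgroup.mem_normalizer_fintype fun n hn => ?_
    obtain ⟨M, hM⟩ := hf ⟨n, hn⟩
    have hM' : (f M : Perm Ω) = n := congrArg Subtype.val hM
    have h1 : g * n * g⁻¹ = (f (c M) : Perm Ω) := by
      rw [mul_inv_eq_iff_eq_mul]
      ext1 x
      apply e.injective
      rw [Perm.mul_apply, Perm.mul_apply, hg, ← hM', he', hs, he', hg]
    rw [h1]
    exact (f (c M)).2
  refine ⟨e, fun σ g hg => ?_, fun a b ha g hg => ?_⟩
  · refine key g (OnePoint.map (σ : F →+* F)) (SpecialLinearGroup.map (σ : F →+* F)) (fun x => hg x) fun M y => ?_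
    rw [OnePoint.map_smul]
    rfl
  · let A : GL (Fin 2) F := GeneralLinearGroup.mkOfDetNeZero !![a, b; 0, 1] (by simpa using ha)
    have hA : ∀ M : SpecialLinearGroup (Fin 2) F, ∃ M' : SpecialLinearGroup (Fin 2) F,
        SpecialLinearGroup.toGL M' = A * SpecialLinearGroup.toGL M * A⁻¹ := by
      intro M
      refine ⟨⟨(A * SpecialLinearGroup.toGL M * A⁻¹ : GL (Fin 2) F).1, ?_⟩, ?_⟩
      · have h1 : ((A * SpecialLinearGroup.toGL M * A⁻¹ : GL (Fin 2) F).1).det =
            (GeneralLinearGroup.det (A * SpecialLinearGroup.toGL M * A⁻¹) : F) := rfl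
        rw [h1, map_mul, map_mul, map_inv, mul_comm (GeneralLinearGroup.det A), mul_inv_cancel_right]
        exact M.2
      · apply Units.ext
        rfl
    choose c hc using hA
    refine key g (fun y => A • y) c (fun x => ?_) fun M y => ?_
    · refine (hg x).trans ?_
      have hA0 : A 0 0 = a := rfl
      have hA1 : A 0 1 = b := rfl
      have hA2 : A 1 0 = 0 := rfl
      have hA3 : A 1 1 = 1 := rfl
      generalize e x = y
      cases y with
      | infty =>
        rw [OnePoint.smul_infty_eq_ite, hA2, if_pos rfl]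
        rfl
      | coe t =>
        rw [OnePoint.smul_some_eq_ite, hA0, hA1, hA2, hA3, zero_mul, zero_add, if_neg one_ne_zero, div_one]
        rfl
    · rw [hc, ← mul_smul, ← mul_smul, inv_mul_cancel_right]

end Cfsg.Agent.H388.Reg
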